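import Mathlib

set_option autoImplicit false

/-!
# Free modules from an idempotent with orthogonal translates
-/

namespace Cfsg.Agent.Lib.Helper98.FW

variable {K W : Type*} [Field K] [AddCommGroup W] [Module K W]
variable {E : Type*} [Group E]

/-- the subspace of vectors fixed by all `σ e` -/
def fixSub (σ : E →* Module.End K W) : Submodule K W where
  carrier := {w | ∀ e, σ e w = w}
  add_mem' := by
    intro a b ha hb e
    rw [map_add, ha e, hb e]
  zero_mem' := fun e => map_zero _
  smul_mem' := by
    intro c a ha e
    rw [map_smul, ha e]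

theorem mem_fixSub (σ : E →* Module.End K W) (w : W) : w ∈ fixSub σ ↔ ∀ e, σ e w = w := Iff.rfl

variable [Fintype E]

section
variable (σ : E →* Module.End K W) (P : Module.End K W)
  (hsum : ∑ e, σ e * P * σ e⁻¹ = 1) (horth : ∀ e, e ≠ 1 → P * (σ e * P * σ e⁻¹) = 0)

include hsum horth in
theorem idem_of : P * P = P := by
  classical
  have h1 : P * ∑ e, σ e * P * σ e⁻¹ = P := by rw [hsum, mul_one]
  rw [Finset.mul_sum, Finset.sum_eq_single (1 : E)] at h1
  · simpa using h1
  · intro e _ he
    exact horth e he
  · intro h
    exact absurd (Finset.mem_univ _) h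

include horth in
theorem P_sigma_P (e : E) (he : e ≠ 1) : P * σ e * P = 0 := by
  have h1 := horth e he
  have h2 : P * (σ e * P * σ e⁻¹) * σ e = 0 := by rw [h1, zero_mul]
  have h3 : σ e⁻¹ * σ e = 1 := by rw [← map_mul, inv_mul_cancel, map_one]
  calc P * σ e * P = P * (σ e * P * (σ e⁻¹ * σ e)) := by rw [h3, mul_one, mul_assoc]
    _ = P * (σ e * P * σ e⁻¹) * σ e := by simp only [mul_assoc]
    _ = 0 := h2

include hsum horth in
theorem P_sum_apply (v : E → W) (hv : ∀ e, P (v e) = v e) (g : E) :
    P (σ g⁻¹ (∑ e, σ e (v e))) = v g := by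
  classical
  rw [map_sum, map_sum, Finset.sum_eq_single g]
  · have : σ g⁻¹ (σ g (v g)) = v g := by
      rw [← Module.End.mul_apply, ← map_mul, inv_mul_cancel, map_one, Module.End.one_apply]
    rw [this, hv]
  · intro e _ he
    have h1 : g⁻¹ * e ≠ 1 := by
      intro h
      apply he
      rw [inv_mul_eq_one] at h
      exact h.symm
    have h2 := P_sigma_P σ P horth _ h1
    have h3 : P (σ g⁻¹ (σ e (v e))) = (P * σ (g⁻¹ * e) * P) (v e) := by
      rw [Module.End.mul_apply, Module.End.mul_apply, hv, map_mul, Module.End.mul_apply]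
    rw [h3, h2, LinearMap.zero_apply]
  · intro h
    exact absurd (Finset.mem_univ _) h

include hsum in
theorem sum_sigma_P (w : W) : ∑ e, σ e (P (σ e⁻¹ w)) = w := by
  have := congrArg (fun f : Module.End K W => f w) hsum
  simpa [LinearMap.sum_apply, Module.End.mul_apply] using this

/-- `W` is the direct sum of the translates of `range P`. -/
noncomputable def equivPi : W ≃ₗ[K] (E → LinearMap.range P) where
  toFun w := fun e => ⟨P (σ e⁻¹ w), LinearMap.mem_range_self _ _⟩
  map_add' := by
    intro a b
    funext e
    apply Subtype.ext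
    simp
  map_smul' := by
    intro c a
    funext e
    apply Subtype.ext
    simp
  invFun v := ∑ e, σ e (v e : W)
  left_inv := by
    intro w
    exact sum_sigma_P σ P hsum w
  right_inv := by
    intro v
    funext g
    apply Subtype.ext
    have hidem := idem_of σ P hsum horth
    have hv : ∀ e, P (v e : W) = (v e : W) := by
      intro e
      obtain ⟨u, hu⟩ := (v e).2
      rw [← hu, ← Module.End.mul_apply, hidem]
    exact P_sum_apply σ P hsum horth (fun e => (v e : W)) hv g

/-- the fixed space is isomorphic to `range P`. -/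
noncomputable def equivFix : fixSub σ ≃ₗ[K] LinearMap.range P where
  toFun w := ⟨P (w : W), LinearMap.mem_range_self _ _⟩
  map_add' := by
    intro a b
    apply Subtype.ext
    simp
  map_smul' := by
    intro c a
    apply Subtype.ext
    simp
  invFun v := ⟨∑ e, σ e (v : W), by
    intro g
    rw [map_sum]
    refine (Fintype.sum_equiv (Equiv.mulLeft g) _ _ ?_)
    intro e
    rw [Equiv.coe_mulLeft, map_mul, Module.End.mul_apply]⟩
  left_inv := by
    intro w
    apply Subtype.ext
    have h1 := sum_sigma_P σ P hsum (w : W)
    have h2 : ∀ e : E, σ e⁻¹ (w : W) = w := fun e => w.2 e⁻¹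
    simp only [h2] at h1
    exact h1
  right_inv := by
    intro v
    apply Subtype.ext
    have hidem := idem_of σ P hsum horth
    have hv : P (v : W) = (v : W) := by
      obtain ⟨u, hu⟩ := v.2
      rw [← hu, ← Module.End.mul_apply, hidem]
    have := P_sum_apply σ P hsum horth (fun _ => (v : W)) (fun _ => hv) 1
    simpa using this

include hsum horth in
theorem finrank_eq_of_idem [FiniteDimensional K W] :
    Module.finrank K W = Fintype.card E * Module.finrank K (fixSub σ) := by
  rw [(equivPi σ P hsum horth).finrank_eq, (equivFix σ P hsum horth).finrank_eq,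
    Module.finrank_pi_fintype]
  simp

end

end Cfsg.Agent.Lib.Helper98.FW
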