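import Mathlib
import Cfsg.Agent.Lib.Helper98.FW.Free

set_option autoImplicit false
set_option linter.unusedSectionVars false

/-!
# Fixed spaces and base change
-/

namespace Cfsg.Agent.Lib.Helper98.FW

open Module TensorProduct

section Idem
variable {F M : Type*} [Field F] [AddCommGroup M] [Module F M] [FiniteDimensional F M]

theorem finrank_range_add_of_idem (π : Module.End F M) (hπ : π * π = π) :
    finrank F (LinearMap.range π) + finrank F (LinearMap.range (1 - π)) = finrank F M := by
  have h1 : LinearMap.range (1 - π) = LinearMap.ker π := by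
    ext w
    constructor
    · rintro ⟨u, rfl⟩
      rw [LinearMap.mem_ker, LinearMap.sub_apply, Module.End.one_apply, map_sub,
        ← Module.End.mul_apply, hπ, sub_self]
    · intro hw
      rw [LinearMap.mem_ker] at hw
      exact ⟨w, by rw [LinearMap.sub_apply, Module.End.one_apply, hw, sub_zero]⟩
  rw [h1]
  exact LinearMap.finrank_range_add_finrank_ker π

end Idem

section BC
variable {F M : Type*} (Kb : Type*) [Field F] [Field Kb] [Algebra F Kb] [AddCommGroup M] [Module F M]
  [FiniteDimensional F M]

theorem finrank_range_baseChange_le (f : Module.End F M) :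
    finrank Kb (LinearMap.range (LinearMap.baseChange Kb f)) ≤ finrank F (LinearMap.range f) := by
  have h2 : LinearMap.baseChange Kb f = (LinearMap.baseChange Kb (LinearMap.range f).subtype) ∘ₗ
      (LinearMap.baseChange Kb f.rangeRestrict) := by
    rw [← LinearMap.baseChange_comp]
    congr 1
  calc finrank Kb (LinearMap.range (LinearMap.baseChange Kb f))
      ≤ finrank Kb (LinearMap.range (LinearMap.baseChange Kb (LinearMap.range f).subtype)) := by
        apply Submodule.finrank_mono
        rw [h2]
        exact LinearMap.range_comp_le_range _ _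
    _ ≤ finrank Kb (Kb ⊗[F] LinearMap.range f) := LinearMap.finrank_range_le _
    _ = finrank F (LinearMap.range f) := Module.finrank_baseChange

theorem finrank_range_baseChange_of_idem (π : Module.End F M) (hπ : π * π = π) :
    finrank Kb (LinearMap.range (LinearMap.baseChange Kb π)) = finrank F (LinearMap.range π) := by
  have h1 := finrank_range_add_of_idem π hπ
  have hπ' : (LinearMap.baseChange Kb π : Module.End Kb (Kb ⊗[F] M)) * LinearMap.baseChange Kb π
      = LinearMap.baseChange Kb π := by
    rw [← LinearMap.baseChange_mul, hπ]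
  have h2 := finrank_range_add_of_idem (LinearMap.baseChange Kb π : Module.End Kb (Kb ⊗[F] M)) hπ'
  have h3 : (1 - LinearMap.baseChange Kb π : Module.End Kb (Kb ⊗[F] M))
      = LinearMap.baseChange Kb (1 - π) := by
    rw [LinearMap.baseChange_sub, LinearMap.baseChange_one]
  rw [h3, Module.finrank_baseChange] at h2
  have h4 := finrank_range_baseChange_le Kb π
  have h5 := finrank_range_baseChange_le Kb (1 - π)
  omega

end BC

section Avg
variable {F M : Type*} [Field F] [AddCommGroup M] [Module F M]
variable {E : Type*} [Group E] [Fintype E]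

/-- the averaging operator -/
noncomputable def avg (σ : E →* Module.End F M) : Module.End F M :=
  ((Fintype.card E : F))⁻¹ • ∑ e, σ e

theorem sigma_mul_sum (σ : E →* Module.End F M) (g : E) : σ g * ∑ e, σ e = ∑ e, σ e := by
  rw [Finset.mul_sum]
  refine Fintype.sum_equiv (Equiv.mulLeft g) _ _ ?_
  intro e
  rw [Equiv.coe_mulLeft, map_mul]

theorem avg_apply_of_mem (hE : (Fintype.card E : F) ≠ 0) (σ : E →* Module.End F M) (w : M)
    (hw : w ∈ fixSub σ) : avg σ w = w := by
  unfold avg
  rw [LinearMap.smul_apply, LinearMap.sum_apply]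
  have : ∀ e : E, σ e w = w := hw
  simp only [this]
  rw [Finset.sum_const, Finset.card_univ, ← Nat.cast_smul_eq_nsmul F, smul_smul, inv_mul_cancel₀ hE,
    one_smul]

theorem avg_mem (σ : E →* Module.End F M) (w : M) : avg σ w ∈ fixSub σ := by
  intro g
  unfold avg
  rw [LinearMap.smul_apply, map_smul, ← Module.End.mul_apply, sigma_mul_sum]

theorem range_avg (hE : (Fintype.card E : F) ≠ 0) (σ : E →* Module.End F M) :
    LinearMap.range (avg σ) = fixSub σ := by
  ext w
  constructor
  · rintro ⟨u, rfl⟩
    exact avg_mem σ u
  · intro hw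
    exact ⟨w, avg_apply_of_mem hE σ w hw⟩

theorem avg_idem (hE : (Fintype.card E : F) ≠ 0) (σ : E →* Module.End F M) : avg σ * avg σ = avg σ := by
  ext w
  rw [Module.End.mul_apply]
  exact avg_apply_of_mem hE σ _ (avg_mem σ w)

end Avg

section Fix
variable {F M : Type*} (Kb : Type*) [Field F] [Field Kb] [Algebra F Kb] [AddCommGroup M] [Module F M]
  [FiniteDimensional F M]
variable {E : Type*} [Group E] [Fintype E]

/-- base change of a representation -/
noncomputable def bc (σ : E →* Module.End F M) : E →* Module.End Kb (Kb ⊗[F] M) :=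
  ((Module.End.baseChangeHom F Kb M : Module.End F M →ₐ[F] Module.End Kb (Kb ⊗[F] M)) : _ →* _).comp σ

theorem bc_apply (σ : E →* Module.End F M) (e : E) : bc Kb σ e = LinearMap.baseChange Kb (σ e) := rfl

theorem finrank_fixSub_bc (hE : (Fintype.card E : F) ≠ 0) (σ : E →* Module.End F M) :
    finrank Kb (fixSub (bc Kb σ)) = finrank F (fixSub σ) := by
  have hE' : (Fintype.card E : Kb) ≠ 0 := by
    have : (Fintype.card E : Kb) = algebraMap F Kb (Fintype.card E : F) := by simp
    rw [this]
    exact (map_ne_zero _).2 hE
  have havg : avg (bc Kb σ) = LinearMap.baseChange Kb (avg σ) := by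
    change _ = Module.End.baseChangeHom F Kb M (avg σ)
    unfold avg
    rw [map_smul, map_sum, ← algebraMap_smul Kb ((Fintype.card E : F))⁻¹, map_inv₀, map_natCast]
    rfl
  rw [← range_avg hE σ, ← range_avg hE' (bc Kb σ), ← finrank_range_baseChange_of_idem Kb _ (avg_idem hE σ),
    havg]

end Fix

end Cfsg.Agent.Lib.Helper98.FW
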