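import Mathlib
import Cfsg.Agent.Lib.Helper98.FW.Free

set_option autoImplicit false
set_option linter.unusedSectionVars false

/-!
# Weight idempotents for a group acting through commuting operators
-/

namespace Cfsg.Agent.Lib.Helper98.FW

open Module

variable {K W : Type*} [Field K] [AddCommGroup W] [Module K W]
variable {T : Type*} [Group T] [Fintype T]

/-- the weight idempotent of a linear character -/
noncomputable def wP (τ : T →* Module.End K W) (l : T →* Kˣ) : Module.End K W :=
  ((Fintype.card T : K))⁻¹ • ∑ t, ((l t⁻¹ : Kˣ) : K) • τ t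

theorem tau_mul_wP (τ : T →* Module.End K W) (l : T →* Kˣ) (s : T) :
    τ s * wP τ l = ((l s : Kˣ) : K) • wP τ l := by
  have key : τ s * ∑ t, ((l t⁻¹ : Kˣ) : K) • τ t = ((l s : Kˣ) : K) • ∑ t, ((l t⁻¹ : Kˣ) : K) • τ t := by
    rw [Finset.mul_sum, Finset.smul_sum]
    refine Fintype.sum_equiv (Equiv.mulLeft s) _ _ ?_
    intro t
    rw [Equiv.coe_mulLeft, mul_smul_comm, ← map_mul, smul_smul]
    congr 1
    rw [← Units.val_mul]
    congr 1
    rw [map_inv, map_inv, map_mul, mul_inv_rev, mul_comm (l t)⁻¹, mul_inv_cancel_left]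
  unfold wP
  rw [mul_smul_comm, key, smul_comm]

theorem wP_mul_wP (hT : (Fintype.card T : K) ≠ 0) (τ : T →* Module.End K W) (m l : T →* Kˣ) [Decidable (m = l)] :
    wP τ m * wP τ l = if m = l then wP τ l else 0 := by
  classical
  have h1 : wP τ m * wP τ l
      = ((Fintype.card T : K))⁻¹ • ((∑ t, (((l * m⁻¹) t : Kˣ) : K)) • wP τ l) := by
    conv_lhs => rw [wP]
    rw [smul_mul_assoc, Finset.sum_mul, Finset.sum_smul]
    congr 1
    refine Finset.sum_congr rfl ?_
    intro t _
    rw [smul_mul_assoc, tau_mul_wP, smul_smul]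
    congr 1
    rw [← Units.val_mul]
    congr 1
    rw [MonoidHom.mul_apply, MonoidHom.inv_apply, map_inv, mul_comm]
  rw [h1]
  by_cases h : m = l
  · subst h
    rw [if_pos rfl]
    have : ∑ t : T, (((m * m⁻¹) t : Kˣ) : K) = (Fintype.card T : K) := by
      simp
    rw [this, smul_smul, inv_mul_cancel₀ hT, one_smul]
  · rw [if_neg h]
    have h2 : (Units.coeHom K).comp (l * m⁻¹) ≠ 1 := by
      intro h3
      apply h
      ext t
      have h4 := congrArg (fun f : T →* K => f t) h3
      simp only [MonoidHom.comp_apply, Units.coeHom_apply, MonoidHom.one_apply, MonoidHom.mul_apply,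
        MonoidHom.inv_apply] at h4
      have h5 : l t * (m t)⁻¹ = 1 := Units.ext h4
      rw [mul_inv_eq_one] at h5
      rw [h5]
    have h3 := sum_hom_units_eq_zero _ h2
    simp only [MonoidHom.comp_apply, Units.coeHom_apply] at h3
    rw [h3, zero_smul, smul_zero]

theorem wP_one (τ : T →* Module.End K W) (h0 : ∑ t, τ t = 0) : wP τ 1 = 0 := by
  unfold wP
  simp [h0]

theorem wP_apply_of_eigen (hT : (Fintype.card T : K) ≠ 0) (τ : T →* Module.End K W) (l : T →* Kˣ) (w : W)
    (hw : ∀ t, τ t w = ((l t : Kˣ) : K) • w) : wP τ l w = w := by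
  unfold wP
  rw [LinearMap.smul_apply, LinearMap.sum_apply]
  have : ∀ t : T, (((l t⁻¹ : Kˣ) : K) • τ t) w = w := by
    intro t
    rw [LinearMap.smul_apply, hw, smul_smul, ← Units.val_mul, ← map_mul, inv_mul_cancel, map_one,
      Units.val_one, one_smul]
  simp only [this]
  rw [Finset.sum_const, Finset.card_univ, ← Nat.cast_smul_eq_nsmul K, smul_smul, inv_mul_cancel₀ hT,
    one_smul]

section Conj
variable {E : Type*} [Group E] (τ : T →* Module.End K W) (σ : E →* Module.End K W) (α : E →* MulAut T)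
  (hcomp : ∀ e t, σ e * τ t * σ e⁻¹ = τ (α e t))

/-- the action on characters -/
def chAct (e : E) (l : T →* Kˣ) : T →* Kˣ := l.comp ((α e)⁻¹ : MulAut T).toMonoidHom

theorem chAct_apply (e : E) (l : T →* Kˣ) (t : T) : chAct α e l t = l ((α e)⁻¹ t) := rfl

include hcomp in
theorem conj_wP (e : E) (l : T →* Kˣ) : σ e * wP τ l * σ e⁻¹ = wP τ (chAct α e l) := by
  unfold wP
  rw [mul_smul_comm, smul_mul_assoc, Finset.mul_sum, Finset.sum_mul]
  congr 1
  refine Fintype.sum_equiv (α e).toEquiv _ _ ?_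
  intro t
  rw [mul_smul_comm, smul_mul_assoc, hcomp]
  congr 2
  rw [chAct_apply]
  simp

end Conj

end Cfsg.Agent.Lib.Helper98.FW
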