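import Mathlib
import Cfsg.Agent.Lib.Helper98.FW.Weights

set_option autoImplicit false
set_option linter.unusedSectionVars false

/-!
# The free module theorem over an algebraically closed field
-/

namespace Cfsg.Agent.Lib.Helper98.FW

open Module Polynomial

variable {K W : Type*} [Field K] [AddCommGroup W] [Module K W]
variable {T : Type*} [Group T] [Fintype T]

theorem tau_semisimple [FiniteDimensional K W] (hT : (Fintype.card T : K) ≠ 0) (τ : T →* Module.End K W) (t : T) :
    (τ t).IsSemisimple := by
  apply Module.End.isSemisimple_of_squarefree_aeval_eq_zero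
    (p := X ^ (Fintype.card T) - C (1 : K)) (separable_X_pow_sub_C 1 hT one_ne_zero).squarefree
  rw [map_sub, map_pow, aeval_X, aeval_C, ← map_pow, pow_card_eq_one, map_one, map_one, sub_self]

theorem sum_wP [IsAlgClosed K] [FiniteDimensional K W] (hT : (Fintype.card T : K) ≠ 0)
    (τ : T →* Module.End K W) (hcomm : ∀ s t, τ s * τ t = τ t * τ s) [Fintype (T →* Kˣ)] :
    ∑ l : T →* Kˣ, wP τ l = 1 := by
  classical
  have htop := Module.End.iSup_iInf_maxGenEigenspace_eq_top_of_iSup_maxGenEigenspace_eq_top_of_commute
    (fun t => τ t) (fun i j _ => hcomm i j) (fun t => Module.End.iSup_maxGenEigenspace_eq_top (τ t))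
  have hle : ∀ χ : T → K, (⨅ t, (τ t).maxGenEigenspace (χ t))
      ≤ LinearMap.ker (∑ l : T →* Kˣ, wP τ l - 1) := by
    intro χ w hw
    rw [LinearMap.mem_ker, LinearMap.sub_apply, Module.End.one_apply, sub_eq_zero]
    by_cases hw0 : w = 0
    · rw [hw0, map_zero]
    have hev : ∀ t, τ t w = χ t • w := by
      intro t
      have h1 := (Submodule.mem_iInf _).1 hw t
      rw [(tau_semisimple hT τ t).isFinitelySemisimple.maxGenEigenspace_eq_eigenspace] at h1
      exact Module.End.mem_eigenspace_iff.1 h1
    have hmul : ∀ s t, χ (s * t) = χ s * χ t := by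
      intro s t
      have h1 : τ (s * t) w = (χ s * χ t) • w := by
        rw [map_mul, Module.End.mul_apply, hev t, map_smul, hev s, smul_smul, mul_comm]
      rw [hev] at h1
      exact smul_left_injective K hw0 h1
    have hone : χ 1 = 1 := by
      have h1 : τ 1 w = (1 : K) • w := by rw [map_one, Module.End.one_apply, one_smul]
      rw [hev] at h1
      exact smul_left_injective K hw0 h1
    let f : T →* K := { toFun := χ, map_one' := hone, map_mul' := hmul }
    let l : T →* Kˣ := f.toHomUnits
    have hl : ∀ t, ((l t : Kˣ) : K) = χ t := fun t => rfl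
    have h1 : wP τ l w = w := wP_apply_of_eigen hT τ l w (fun t => by rw [hl, hev])
    rw [LinearMap.sum_apply, Finset.sum_eq_single l]
    · exact h1
    · intro m _ hm
      rw [← h1, ← Module.End.mul_apply, wP_mul_wP hT, if_neg hm, LinearMap.zero_apply]
    · intro h
      exact absurd (Finset.mem_univ _) h
  have hker : LinearMap.ker (∑ l : T →* Kˣ, wP τ l - 1) = ⊤ := by
    rw [eq_top_iff, ← htop]
    exact iSup_le hle
  have := LinearMap.ker_eq_top.1 hker
  exact sub_eq_zero.1 this

section Main
variable {E : Type*} [Group E] [Fintype E]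

/-- nontrivial characters -/
abbrev NCh (K T : Type*) [Field K] [Group T] := {l : T →* Kˣ // l ≠ 1}

/-- the action of `E` on nontrivial characters -/
@[instance_reducible] def nchAction (α : E →* MulAut T) : MulAction E (NCh K T) where
  smul e l := ⟨chAct α e l.1, by
    intro h
    apply l.2
    ext t
    have := congrArg (fun f : T →* Kˣ => f (α e t)) h
    simp only [chAct_apply, MonoidHom.one_apply] at this
    rw [MulAut.inv_apply_self] at this
    rw [this, MonoidHom.one_apply]⟩
  one_smul := by
    intro l
    apply Subtype.ext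
    ext t
    change ((chAct α 1 l.1 t : Kˣ) : K) = _
    rw [chAct_apply, map_one, inv_one, MulAut.one_apply]
  mul_smul := by
    intro a b l
    apply Subtype.ext
    ext t
    change ((chAct α (a * b) l.1 t : Kˣ) : K) = ((chAct α a (chAct α b l.1) t : Kˣ) : K)
    rw [chAct_apply, chAct_apply, chAct_apply, map_mul, mul_inv_rev, MulAut.mul_apply]

theorem finrank_eq_card_mul [IsAlgClosed K] [FiniteDimensional K W] (hT : (Fintype.card T : K) ≠ 0)
    (τ : T →* Module.End K W) (σ : E →* Module.End K W) (α : E →* MulAut T)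
    (hcomp : ∀ e t, σ e * τ t * σ e⁻¹ = τ (α e t)) (hcomm : ∀ s t, τ s * τ t = τ t * τ s)
    (h0 : ∑ t, τ t = 0)
    (hfree : ∀ e : E, e ≠ 1 → ∀ l : T →* Kˣ, chAct α e l = l → l = 1) :
    finrank K W = Fintype.card E * finrank K (fixSub σ) := by
  classical
  have : Fintype (T →* Kˣ) := Fintype.ofFinite _
  let _ := nchAction (K := K) α
  have hsmul : ∀ (e : E) (l : NCh K T), (e • l).1 = chAct α e l.1 := fun _ _ => rfl
  have hstab : ∀ l : NCh K T, MulAction.stabilizer E l = ⊥ := by
    intro l
    rw [eq_bot_iff]
    intro e he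
    rw [Subgroup.mem_bot]
    by_contra hne
    rw [MulAction.mem_stabilizer_iff] at he
    have h1 := congrArg Subtype.val he
    rw [hsmul] at h1
    exact l.2 (hfree e hne l.1 h1)
  let eqv := MulAction.selfEquivOrbitsQuotientProd hstab
  have heqv : ∀ x, eqv.symm x = x.2 • (Quotient.out x.1) := by
    intro x
    rfl
  let P : Module.End K W := ∑ ω : Quotient (MulAction.orbitRel E (NCh K T)), wP τ (Quotient.out ω).1
  have hconj : ∀ e : E, σ e * P * σ e⁻¹
      = ∑ ω : Quotient (MulAction.orbitRel E (NCh K T)), wP τ (e • Quotient.out ω).1 := by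
    intro e
    simp only [P]
    rw [Finset.mul_sum, Finset.sum_mul]
    refine Finset.sum_congr rfl ?_
    intro ω _
    rw [conj_wP τ σ α hcomp, hsmul]
  apply finrank_eq_of_idem σ P
  · -- the sum
    have h1 : ∑ e, σ e * P * σ e⁻¹ = ∑ l : NCh K T, wP τ l.1 := by
      simp only [hconj]
      rw [Finset.sum_comm]
      rw [← Fintype.sum_prod_type (fun z : Quotient (MulAction.orbitRel E (NCh K T)) × E =>
        wP τ (z.2 • Quotient.out z.1).1)]
      refine Fintype.sum_equiv eqv.symm _ _ ?_
      intro x
      rw [heqv]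
    rw [h1, ← sum_wP hT τ hcomm]
    have h2 : ∑ l : T →* Kˣ, wP τ l = wP τ 1 + ∑ l : NCh K T, wP τ l.1 := by
      rw [← Finset.add_sum_erase _ _ (Finset.mem_univ (1 : T →* Kˣ))]
      congr 1
      rw [← Finset.sum_subtype (p := fun l : T →* Kˣ => l ≠ 1) (f := fun l => wP τ l)]
      intro x
      simp
    rw [h2, wP_one τ h0, zero_add]
  · intro e he
    rw [hconj]
    simp only [P]
    rw [Finset.sum_mul_sum]
    refine Finset.sum_eq_zero ?_
    intro ω _
    refine Finset.sum_eq_zero ?_
    intro ω' _
    rw [wP_mul_wP hT, if_neg]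
    intro h
    have h1 : Quotient.out ω = e • Quotient.out ω' := Subtype.ext h
    have h2 : ω = ω' := by
      rw [← Quotient.out_eq ω, ← Quotient.out_eq ω']
      apply Quotient.sound
      change MulAction.orbitRel E (NCh K T) _ _
      rw [MulAction.orbitRel_apply, h1]
      exact MulAction.mem_orbit _ _
    subst h2
    have h3 : e ∈ MulAction.stabilizer E (Quotient.out ω) := by
      rw [MulAction.mem_stabilizer_iff]
      exact h1.symm
    rw [hstab, Subgroup.mem_bot] at h3
    exact he h3

end Main

end Cfsg.Agent.Lib.Helper98.FW
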