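import Mathlib
import Cfsg.Agent.Lib.Helper98.FW.Key
import Cfsg.Agent.Lib.Helper98.FW.BaseChange

set_option autoImplicit false
set_option linter.unusedSectionVars false
set_option linter.style.haveILetI false

/-!
# The Frobenius fixed point formula for elementary abelian groups
-/

namespace Cfsg.Agent.Lib.Helper98.FW

open Module TensorProduct

section Lin
variable {V : Type*} [CommGroup V] (ℓ : ℕ) [Module (ZMod ℓ) (Additive V)]

/-- automorphisms as linear maps -/
def linHom : MulAut V →* Module.End (ZMod ℓ) (Additive V) where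
  toFun φ := (MonoidHom.toAdditive φ.toMonoidHom).toZModLinearMap ℓ
  map_one' := by
    apply LinearMap.ext
    intro v
    rfl
  map_mul' := by
    intro a b
    apply LinearMap.ext
    intro v
    rfl

theorem linHom_apply (φ : MulAut V) (m : Additive V) :
    linHom ℓ φ m = Additive.ofMul (φ m.toMul) := rfl

end Lin

theorem card_eq_pow {V : Type*} [CommGroup V] [Finite V] (ℓ : ℕ) [hℓ : Fact ℓ.Prime]
    (hexp : ∀ v : V, v ^ ℓ = 1)
    {T E : Type*} [Group T] [Finite T] [Group E] [Finite E]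
    (τ : T →* MulAut V) (σ : E →* MulAut V) (α : E →* MulAut T)
    (hcomp : ∀ e t, σ e * τ t * (σ e)⁻¹ = τ (α e t)) (hcomm : ∀ s t, τ s * τ t = τ t * τ s)
    (hT : ¬ ℓ ∣ Nat.card T) (hE : ¬ ℓ ∣ Nat.card E)
    (hfix : ∀ v, (∀ t, τ t v = v) → v = 1)
    (hfree : ∀ e : E, e ≠ 1 → Subgroup.closure {x : T | ∃ t, x = α e t * t⁻¹} = ⊤) :
    Nat.card V = Nat.card {v : V // ∀ e, σ e v = v} ^ Nat.card E := by
  classical
  have := Fintype.ofFinite T
  have := Fintype.ofFinite E
  obtain ⟨i⟩ : Nonempty (Module (ZMod ℓ) (Additive V)) := ⟨AddCommGroup.zmodModule (n := ℓ) (by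
    intro x
    exact congrArg Additive.ofMul (hexp x.toMul))⟩
  let Kb := AlgebraicClosure (ZMod ℓ)
  let τ₀ : T →* Module.End (ZMod ℓ) (Additive V) := (linHom ℓ).comp τ
  let σ₀ : E →* Module.End (ZMod ℓ) (Additive V) := (linHom ℓ).comp σ
  have hτ₀ : ∀ t m, τ₀ t m = Additive.ofMul (τ t m.toMul) := fun _ _ => rfl
  have hσ₀ : ∀ e m, σ₀ e m = Additive.ofMul (σ e m.toMul) := fun _ _ => rfl
  haveI : Module.Finite (ZMod ℓ) (Additive V) := Module.Finite.of_finite
  have hTK : (Fintype.card T : Kb) ≠ 0 := by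
    rw [Ne, CharP.cast_eq_zero_iff Kb ℓ, ← Nat.card_eq_fintype_card]
    exact hT
  have hEF : (Fintype.card E : ZMod ℓ) ≠ 0 := by
    rw [Ne, CharP.cast_eq_zero_iff (ZMod ℓ) ℓ, ← Nat.card_eq_fintype_card]
    exact hE
  have hsum0 : ∑ t, τ₀ t = 0 := by
    apply LinearMap.ext
    intro m
    rw [LinearMap.zero_apply]
    have h1 : ∀ s, τ₀ s ((∑ t, τ₀ t) m) = (∑ t, τ₀ t) m := by
      intro s
      rw [← Module.End.mul_apply, sigma_mul_sum]
    have h2 := hfix ((∑ t, τ₀ t) m).toMul (by
      intro s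
      have := h1 s
      rw [hτ₀] at this
      exact congrArg Additive.toMul this)
    exact congrArg Additive.ofMul h2
  have key := finrank_eq_card_mul (K := Kb) (W := Kb ⊗[ZMod ℓ] Additive V) hTK (bc Kb τ₀) (bc Kb σ₀) α
    (by
      intro e t
      have h1 : σ₀ e * τ₀ t * σ₀ e⁻¹ = τ₀ (α e t) := by
        simp only [τ₀, σ₀, MonoidHom.comp_apply]
        rw [← hcomp, map_mul, map_mul, map_inv]
      rw [bc_apply, bc_apply, bc_apply, bc_apply, ← h1, LinearMap.baseChange_mul,
        LinearMap.baseChange_mul])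
    (by
      intro s t
      have h1 : τ₀ s * τ₀ t = τ₀ t * τ₀ s := by
        simp only [τ₀, MonoidHom.comp_apply]
        rw [← map_mul, hcomm, map_mul]
      rw [bc_apply, bc_apply, ← LinearMap.baseChange_mul, h1, LinearMap.baseChange_mul])
    (by
      have : ∑ t, bc Kb τ₀ t = Module.End.baseChangeHom (ZMod ℓ) Kb (Additive V) (∑ t, τ₀ t) := by
        rw [map_sum]
        rfl
      rw [this, hsum0, map_zero])
    (by
      intro e he l hl
      have h1 : Subgroup.closure {x : T | ∃ t, x = α e t * t⁻¹} ≤ l.ker := by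
        rw [Subgroup.closure_le]
        rintro x ⟨t, rfl⟩
        change _ ∈ l.ker
        rw [MonoidHom.mem_ker, map_mul, map_inv, mul_inv_eq_one]
        have h2 := congrArg (fun f : T →* Kbˣ => f (α e t)) hl
        simp only [chAct_apply] at h2
        rw [MulAut.inv_apply_self] at h2
        exact h2.symm
      rw [hfree e he, top_le_iff, MonoidHom.ker_eq_top_iff] at h1
      exact h1)
  rw [Module.finrank_baseChange, finrank_fixSub_bc Kb hEF σ₀] at key
  have c1 : Nat.card V = ℓ ^ finrank (ZMod ℓ) (Additive V) := by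
    have := Module.natCard_eq_pow_finrank (K := ZMod ℓ) (V := Additive V)
    rw [Nat.card_zmod] at this
    exact this
  have c2 : Nat.card {v : V // ∀ e, σ e v = v} = ℓ ^ finrank (ZMod ℓ) (fixSub σ₀) := by
    have := Module.natCard_eq_pow_finrank (K := ZMod ℓ) (V := fixSub σ₀)
    rw [Nat.card_zmod] at this
    rw [← this]
    refine Nat.card_congr ⟨fun v => ⟨Additive.ofMul v.1, fun e => ?_⟩, fun m => ⟨m.1.toMul, fun e => ?_⟩,
      fun v => rfl, fun m => rfl⟩
    · rw [hσ₀]
      exact congrArg Additive.ofMul (v.2 e)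
    · have := m.2 e
      rw [hσ₀] at this
      exact congrArg Additive.toMul this
  rw [c1, c2, key, ← pow_mul, mul_comm, Nat.card_eq_fintype_card]

end Cfsg.Agent.Lib.Helper98.FW
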