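import Mathlib
import Cfsg.Agent.Lib.Helper98.FW.Finite

set_option autoImplicit false
set_option linter.unusedSectionVars false
set_option linter.style.haveILetI false

/-!
# The abstract irreducible case
-/

namespace Cfsg.Agent.Lib.Helper98.FW

variable {Γ : Type*} [Group Γ] [Finite Γ] {V : Type*} [CommGroup V] [Finite V]

/-- elements of `U` whose action commutes with the action of `U` -/
def cenSub (U : Subgroup Γ) (φ : Γ →* MulAut V) : Subgroup Γ where
  carrier := {t | t ∈ U ∧ ∀ u ∈ U, φ t * φ u = φ u * φ t}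
  one_mem' := ⟨U.one_mem, fun u _ => by rw [map_one, one_mul, mul_one]⟩
  mul_mem' := by
    rintro a b ⟨ha, ha'⟩ ⟨hb, hb'⟩
    refine ⟨U.mul_mem ha hb, fun u hu => ?_⟩
    rw [map_mul, mul_assoc, hb' u hu, ← mul_assoc, ha' u hu, mul_assoc]
  inv_mem' := by
    rintro a ⟨ha, ha'⟩
    refine ⟨U.inv_mem ha, fun u hu => ?_⟩
    have h1 : Commute (φ a) (φ u) := ha' u hu
    rw [map_inv]
    exact h1.inv_left

theorem cenSub_normal (U : Subgroup Γ) [hU : U.Normal] (φ : Γ →* MulAut V) : (cenSub U φ).Normal := by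
  constructor
  rintro t ⟨ht, ht'⟩ g
  refine ⟨hU.conj_mem t ht g, fun u hu => ?_⟩
  have h1 := ht' (g⁻¹ * u * g) (by
    have := hU.conj_mem u hu g⁻¹
    rwa [inv_inv] at this)
  have h2 : φ (g * t * g⁻¹) * φ u = φ g * (φ t * φ (g⁻¹ * u * g)) * φ g⁻¹ := by
    rw [← map_mul, ← map_mul, ← map_mul, ← map_mul]
    congr 1
    group
  have h3 : φ u * φ (g * t * g⁻¹) = φ g * (φ (g⁻¹ * u * g) * φ t) * φ g⁻¹ := by
    rw [← map_mul, ← map_mul, ← map_mul, ← map_mul]
    congr 1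
    group
  rw [h2, h3, h1]

theorem exists_cenSub_ne_one (U : Subgroup Γ) (hnil : Group.IsNilpotent U) (φ : Γ →* MulAut V)
    (hU : ∃ u ∈ U, φ u ≠ 1) : ∃ t ∈ cenSub U φ, φ t ≠ 1 := by
  by_contra hcon
  push Not at hcon
  obtain ⟨n, hn⟩ := hnil.nilpotent'
  have key : ∀ k : ℕ, ∀ u : U, u ∈ Subgroup.upperCentralSeries U k → φ (u : Γ) = 1 := by
    intro k
    induction k with
    | zero =>
      intro u hu
      rw [Subgroup.upperCentralSeries_zero, Subgroup.mem_bot] at hu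
      rw [hu, Subgroup.coe_one, map_one]
    | succ k ih =>
      intro u hu
      rw [Subgroup.mem_upperCentralSeries_succ_iff] at hu
      apply hcon
      refine ⟨u.2, fun w hw => ?_⟩
      have h1 := ih _ (hu ⟨w, hw⟩)
      have h2 : φ ((u : Γ) * w * (u : Γ)⁻¹ * w⁻¹) = 1 := h1
      rw [map_mul, map_mul, map_mul, map_inv, map_inv, mul_inv_eq_one, mul_inv_eq_iff_eq_mul] at h2
      exact h2
  obtain ⟨u, hu, hu1⟩ := hU
  apply hu1
  exact key n ⟨u, hu⟩ (by rw [hn]; exact Subgroup.mem_top _)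

theorem abs_card_eq_pow (ℓ : ℕ) [hℓ : Fact ℓ.Prime] (hexp : ∀ v : V, v ^ ℓ = 1)
    (U E : Subgroup Γ) [hUn : U.Normal] (hnil : Group.IsNilpotent U)
    (hfpf : ∀ e ∈ E, e ≠ 1 → ∀ u ∈ U, e * u = u * e → u = 1)
    (φ : Γ →* MulAut V) (hℓU : ¬ ℓ ∣ Nat.card U) (hℓE : ¬ ℓ ∣ Nat.card E)
    (hirr : ∀ B : Subgroup Γ, B.Normal → B ≤ U →
      (∀ v, (∀ b ∈ B, φ b v = v) → v = 1) ∨ (∀ b ∈ B, φ b = 1))
    (hU : ∃ u ∈ U, φ u ≠ 1) :
    Nat.card V = Nat.card {v : V // ∀ e ∈ E, φ e v = v} ^ Nat.card E := by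
  classical
  set T := cenSub U φ with hTdef
  haveI hTn : T.Normal := cenSub_normal U φ
  have hTU : T ≤ U := fun t ht => ht.1
  obtain ⟨t₀, ht₀, ht₀1⟩ := exists_cenSub_ne_one U hnil φ hU
  have hfixT : ∀ v, (∀ b ∈ T, φ b v = v) → v = 1 := by
    rcases hirr T hTn hTU with h | h
    · exact h
    · exact absurd (h t₀ ht₀) ht₀1
  have hmain := card_eq_pow ℓ hexp (T := T) (E := E) (φ.comp T.subtype) (φ.comp E.subtype)
    ((MulAut.conjNormal (H := T)).comp E.subtype)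
    (by
      intro e t
      simp only [MonoidHom.comp_apply, Subgroup.coe_subtype]
      rw [MulAut.conjNormal_apply, map_mul, map_mul, map_inv])
    (by
      intro s t
      simp only [MonoidHom.comp_apply, Subgroup.coe_subtype]
      exact s.2.2 t (hTU t.2))
    (by
      intro h
      exact hℓU (h.trans (Subgroup.card_dvd_of_le hTU)))
    hℓE
    (by
      intro v hv
      exact hfixT v (fun b hb => hv ⟨b, hb⟩))
    (by
      intro e he
      rw [eq_top_iff]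
      intro x _
      apply Subgroup.subset_closure
      have hinj : Function.Injective (fun t : T => ((MulAut.conjNormal (H := T)).comp E.subtype) e t * t⁻¹) := by
        intro s t hst
        have h1 : (e : Γ) * s * (e : Γ)⁻¹ * (s : Γ)⁻¹ = (e : Γ) * t * (e : Γ)⁻¹ * (t : Γ)⁻¹ := by
          have := congrArg (fun z : T => (z : Γ)) hst
          simpa [MulAut.conjNormal_apply] using this
        have h2 : (e : Γ) * ((t : Γ)⁻¹ * s) = ((t : Γ)⁻¹ * s) * e := by
          have h3 : (e : Γ) * s * (e : Γ)⁻¹ = (e : Γ) * t * (e : Γ)⁻¹ * (t : Γ)⁻¹ * s := by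
            rw [← h1]; group
          calc (e : Γ) * ((t : Γ)⁻¹ * s) = ((e : Γ) * t * (e : Γ)⁻¹)⁻¹ * ((e : Γ) * s * (e : Γ)⁻¹) * e := by group
            _ = ((e : Γ) * t * (e : Γ)⁻¹)⁻¹ * ((e : Γ) * t * (e : Γ)⁻¹ * (t : Γ)⁻¹ * s) * e := by rw [h3]
            _ = ((t : Γ)⁻¹ * s) * e := by group
        have h4 := hfpf e e.2 (fun h => he (Subtype.ext h)) ((t : Γ)⁻¹ * s)
          (U.mul_mem (U.inv_mem (hTU t.2)) (hTU s.2)) h2
        apply Subtype.ext
        rw [inv_mul_eq_one] at h4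
        exact h4.symm
      obtain ⟨t, ht⟩ := (Finite.surjective_of_injective hinj) x
      exact ⟨t, ht.symm⟩)
  rw [hmain]
  congr 1
  refine Nat.card_congr ⟨fun v => ⟨v.1, fun e he => v.2 ⟨e, he⟩⟩, fun v => ⟨v.1, fun e => v.2 e e.2⟩,
    fun v => rfl, fun v => rfl⟩

end Cfsg.Agent.Lib.Helper98.FW
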