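import Mathlib
import Cfsg.Agent.Lib.Helper98.FW.Abs

set_option autoImplicit false
set_option linter.unusedSectionVars false
set_option linter.style.haveILetI false

/-!
# The fixed point formula for an irreducible abelian section
-/

namespace Cfsg.Agent.Lib.Helper98.FW

variable {Γ : Type*} [Group Γ] [Finite Γ] {Q : Type*} [CommGroup Q] [Finite Q]

/-- fixed points of a subgroup -/
def fixB (φ : Γ →* MulAut Q) (B : Subgroup Γ) : Subgroup Q where
  carrier := {v | ∀ b ∈ B, φ b v = v}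
  one_mem' := fun b _ => map_one _
  mul_mem' := by
    intro a b ha hb g hg
    rw [map_mul, ha g hg, hb g hg]
  inv_mem' := by
    intro a ha g hg
    rw [map_inv, ha g hg]

theorem mem_fixB (φ : Γ →* MulAut Q) (B : Subgroup Γ) (v : Q) : v ∈ fixB φ B ↔ ∀ b ∈ B, φ b v = v :=
  Iff.rfl

theorem fixB_invariant (φ : Γ →* MulAut Q) (B : Subgroup Γ) [hB : B.Normal] (g : Γ) (v : Q)
    (hv : v ∈ fixB φ B) : φ g v ∈ fixB φ B := by
  intro b hb
  have h1 := hv (g⁻¹ * b * g) (by
    have := hB.conj_mem b hb g⁻¹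
    rwa [inv_inv] at this)
  have h2 : φ b (φ g v) = φ g (φ (g⁻¹ * b * g) v) := by
    rw [← MulAut.mul_apply, ← MulAut.mul_apply, ← map_mul, ← map_mul]
    congr 2
    group
  rw [h2, h1]

theorem fix_sup (φ : Γ →* MulAut Q) (U E : Subgroup Γ) (hUE : U ⊔ E = ⊤) (v : Q)
    (hU : ∀ u ∈ U, φ u v = v) (hE : ∀ e ∈ E, φ e v = v) (g : Γ) : φ g v = v := by
  let S : Subgroup Γ :=
    { carrier := {g | φ g v = v}
      one_mem' := by
        change φ 1 v = v
        rw [map_one, MulAut.one_apply]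
      mul_mem' := by
        intro a b ha hb
        change φ (a * b) v = v
        rw [map_mul, MulAut.mul_apply, hb, ha]
      inv_mem' := by
        intro a ha
        change φ a⁻¹ v = v
        rw [map_inv]
        have h1 : φ a v = v := ha
        calc (φ a)⁻¹ v = (φ a)⁻¹ (φ a v) := by rw [h1]
          _ = v := MulAut.inv_apply_self _ _ _ }
  have h1 : U ⊔ E ≤ S := sup_le (fun u hu => hU u hu) (fun e he => hE e he)
  rw [hUE] at h1
  exact h1 (Subgroup.mem_top g)

theorem abs_formula (U E : Subgroup Γ) [hUn : U.Normal] (hnil : Group.IsNilpotent U)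
    (hfpf : ∀ e ∈ E, e ≠ 1 → ∀ u ∈ U, e * u = u * e → u = 1) (hUE : U ⊔ E = ⊤)
    (φ : Γ →* MulAut Q) (hcop : (Nat.card Q).Coprime (Nat.card Γ))
    (hirr : ∀ S : Subgroup Q, (∀ g : Γ, ∀ v ∈ S, φ g v ∈ S) → S = ⊥ ∨ S = ⊤) :
    Nat.card {v : Q // ∀ g : Γ, φ g v = v} ^ Nat.card E * Nat.card Q
      = Nat.card {v : Q // ∀ e ∈ E, φ e v = v} ^ Nat.card E * Nat.card {v : Q // ∀ u ∈ U, φ u v = v} := by
  classical
  rcases hirr (fixB φ U) (fun g v hv => fixB_invariant φ U g v hv) with h | h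
  · -- no fixed points of `U`
    have hfixU : ∀ v, (∀ u ∈ U, φ u v = v) → v = 1 := by
      intro v hv
      have : v ∈ fixB φ U := hv
      rwa [h, Subgroup.mem_bot] at this
    have c1 : Nat.card {v : Q // ∀ u ∈ U, φ u v = v} = 1 := by
      rw [Nat.card_eq_one_iff_unique]
      refine ⟨⟨fun a b => Subtype.ext ?_⟩, ⟨⟨1, fun u _ => map_one _⟩⟩⟩
      rw [hfixU a.1 a.2, hfixU b.1 b.2]
    have c2 : Nat.card {v : Q // ∀ g : Γ, φ g v = v} = 1 := by
      rw [Nat.card_eq_one_iff_unique]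
      refine ⟨⟨fun a b => Subtype.ext ?_⟩, ⟨⟨1, fun u => map_one _⟩⟩⟩
      rw [hfixU a.1 (fun u _ => a.2 u), hfixU b.1 (fun u _ => b.2 u)]
    rw [c1, c2, one_pow, one_mul, mul_one]
    by_cases hQ : Nat.card Q = 1
    · have hs : Subsingleton Q := (Nat.card_eq_one_iff_unique.1 hQ).1
      have c3 : Nat.card {v : Q // ∀ e ∈ E, φ e v = v} = 1 := by
        rw [Nat.card_eq_one_iff_unique]
        exact ⟨⟨fun a b => Subtype.ext (Subsingleton.elim _ _)⟩, ⟨⟨1, fun u _ => map_one _⟩⟩⟩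
      rw [hQ, c3, one_pow]
    obtain ⟨ℓ, hℓ, hℓQ⟩ := Nat.exists_prime_and_dvd hQ
    haveI := Fact.mk hℓ
    have hexp : ∀ v : Q, v ^ ℓ = 1 := by
      rcases hirr (powMonoidHom ℓ : Q →* Q).ker (by
        intro g v hv
        rw [MonoidHom.mem_ker, powMonoidHom_apply] at hv ⊢
        rw [← map_pow, hv, map_one]) with h1 | h1
      · exfalso
        obtain ⟨x, hx⟩ := exists_prime_orderOf_dvd_card' (G := Q) ℓ hℓQ
        have h2 : x ∈ (powMonoidHom ℓ : Q →* Q).ker := by
          rw [MonoidHom.mem_ker, powMonoidHom_apply, ← hx, pow_orderOf_eq_one]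
        rw [h1, Subgroup.mem_bot] at h2
        rw [h2, orderOf_one] at hx
        exact hℓ.one_lt.ne hx
      · intro v
        have : v ∈ (powMonoidHom ℓ : Q →* Q).ker := by rw [h1]; exact Subgroup.mem_top v
        rwa [MonoidHom.mem_ker, powMonoidHom_apply] at this
    have hnd : ∀ B : Subgroup Γ, ¬ ℓ ∣ Nat.card B := by
      intro B hB
      have h1 : ℓ ∣ Nat.card Γ := hB.trans (Subgroup.card_subgroup_dvd_card B)
      have h2 := Nat.dvd_gcd hℓQ h1
      rw [hcop.gcd_eq_one] at h2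
      exact hℓ.one_lt.ne' (Nat.dvd_one.1 h2)
    apply abs_card_eq_pow ℓ hexp U E hnil hfpf φ (hnd U) (hnd E)
    · intro B hB _
      haveI := hB
      rcases hirr (fixB φ B) (fun g v hv => fixB_invariant φ B g v hv) with h1 | h1
      · left
        intro v hv
        have : v ∈ fixB φ B := hv
        rwa [h1, Subgroup.mem_bot] at this
      · right
        intro b hb
        ext v
        have : v ∈ fixB φ B := by rw [h1]; exact Subgroup.mem_top v
        exact this b hb
    · by_contra hcon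
      push Not at hcon
      apply hQ
      rw [Nat.card_eq_one_iff_unique]
      refine ⟨⟨fun a b => ?_⟩, ⟨1⟩⟩
      rw [hfixU a (fun u hu => by rw [hcon u hu, MulAut.one_apply]),
        hfixU b (fun u hu => by rw [hcon u hu, MulAut.one_apply])]
  · -- `U` acts trivially
    have hU : ∀ v, ∀ u ∈ U, φ u v = v := by
      intro v
      have : v ∈ fixB φ U := by rw [h]; exact Subgroup.mem_top v
      exact this
    have c1 : Nat.card {v : Q // ∀ u ∈ U, φ u v = v} = Nat.card Q :=
      Nat.card_congr ⟨fun v => v.1, fun v => ⟨v, hU v⟩, fun v => rfl, fun v => rfl⟩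
    have c2 : Nat.card {v : Q // ∀ g : Γ, φ g v = v} = Nat.card {v : Q // ∀ e ∈ E, φ e v = v} :=
      Nat.card_congr ⟨fun v => ⟨v.1, fun e _ => v.2 e⟩,
        fun v => ⟨v.1, fun g => fix_sup φ U E hUE v.1 (hU v.1) v.2 g⟩, fun v => rfl, fun v => rfl⟩
    rw [c1, c2]

end Cfsg.Agent.Lib.Helper98.FW
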