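import Mathlib
import Cfsg.Agent.Lib.Helper98.FW.Finite

set_option autoImplicit false
set_option linter.unusedSectionVars false
set_option linter.style.haveILetI false

/-!
# The norm operator of the complement is nonzero
-/

namespace Cfsg.Agent.Lib.Helper98.FW

open Module TensorProduct

section AlgClosed
variable {K W : Type*} [Field K] [AddCommGroup W] [Module K W]
variable {T : Type*} [Group T] [Fintype T] {E : Type*} [Group E] [Fintype E]

theorem sum_sigma_ne_zero [IsAlgClosed K] [FiniteDimensional K W] [Nontrivial W]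
    (hT : (Fintype.card T : K) ≠ 0)
    (τ : T →* Module.End K W) (σ : E →* Module.End K W) (α : E →* MulAut T)
    (hcomp : ∀ e t, σ e * τ t * σ e⁻¹ = τ (α e t)) (hcomm : ∀ s t, τ s * τ t = τ t * τ s)
    (h0 : ∑ t, τ t = 0)
    (hfree : ∀ e : E, e ≠ 1 → ∀ l : T →* Kˣ, chAct α e l = l → l = 1) :
    ∑ e, σ e ≠ 0 := by
  classical
  have : Fintype (T →* Kˣ) := Fintype.ofFinite _
  intro hsum
  obtain ⟨l, hl⟩ : ∃ l : T →* Kˣ, wP τ l ≠ 0 := by
    by_contra hcon
    push Not at hcon
    have h1 := sum_wP hT τ hcomm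
    simp only [hcon, Finset.sum_const_zero] at h1
    exact zero_ne_one h1
  have hl1 : l ≠ 1 := by
    intro h
    apply hl
    rw [h, wP_one τ h0]
  have horth : ∀ e, e ≠ 1 → wP τ l * (σ e * wP τ l * σ e⁻¹) = 0 := by
    intro e he
    rw [conj_wP τ σ α hcomp, wP_mul_wP hT, if_neg]
    intro h
    exact hl1 (hfree e he l h.symm)
  have h2 : wP τ l * (∑ e, σ e) * wP τ l = wP τ l := by
    rw [Finset.mul_sum, Finset.sum_mul, Finset.sum_eq_single (1 : E)]
    · rw [map_one, mul_one, wP_mul_wP hT, if_pos rfl]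
    · intro e _ he
      exact P_sigma_P σ (wP τ l) horth e he
    · intro h
      exact absurd (Finset.mem_univ _) h
  rw [hsum, mul_zero, zero_mul] at h2
  exact hl h2.symm

end AlgClosed

theorem exists_prod_ne_one {V : Type*} [CommGroup V] [Finite V] [Nontrivial V] (ℓ : ℕ)
    [hℓ : Fact ℓ.Prime] (hexp : ∀ v : V, v ^ ℓ = 1)
    {T E : Type*} [Group T] [Finite T] [Group E] [Fintype E]
    (τ : T →* MulAut V) (σ : E →* MulAut V) (α : E →* MulAut T)
    (hcomp : ∀ e t, σ e * τ t * (σ e)⁻¹ = τ (α e t)) (hcomm : ∀ s t, τ s * τ t = τ t * τ s)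
    (hT : ¬ ℓ ∣ Nat.card T)
    (hfix : ∀ v, (∀ t, τ t v = v) → v = 1)
    (hfree : ∀ e : E, e ≠ 1 → Subgroup.closure {x : T | ∃ t, x = α e t * t⁻¹} = ⊤) :
    ∃ v : V, ∏ e, σ e v ≠ 1 := by
  classical
  have := Fintype.ofFinite T
  obtain ⟨i⟩ : Nonempty (Module (ZMod ℓ) (Additive V)) := ⟨AddCommGroup.zmodModule (n := ℓ) (by
    intro x
    exact congrArg Additive.ofMul (hexp x.toMul))⟩
  let Kb := AlgebraicClosure (ZMod ℓ)
  let τ₀ : T →* Module.End (ZMod ℓ) (Additive V) := (linHom ℓ).comp τ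
  let σ₀ : E →* Module.End (ZMod ℓ) (Additive V) := (linHom ℓ).comp σ
  have hτ₀ : ∀ t m, τ₀ t m = Additive.ofMul (τ t m.toMul) := fun _ _ => rfl
  have hσ₀ : ∀ e m, σ₀ e m = Additive.ofMul (σ e m.toMul) := fun _ _ => rfl
  haveI : Module.Finite (ZMod ℓ) (Additive V) := Module.Finite.of_finite
  have hTK : (Fintype.card T : Kb) ≠ 0 := by
    rw [Ne, CharP.cast_eq_zero_iff Kb ℓ, ← Nat.card_eq_fintype_card]
    exact hT
  have hsum0 : ∑ t, τ₀ t = 0 := by
    apply LinearMap.ext
    intro m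
    rw [LinearMap.zero_apply]
    have h1 : ∀ s, τ₀ s ((∑ t, τ₀ t) m) = (∑ t, τ₀ t) m := by
      intro s
      rw [← Module.End.mul_apply, sigma_mul_sum]
    have h2 := hfix ((∑ t, τ₀ t) m).toMul (by
      intro s
      have := h1 s
      rw [hτ₀] at this
      exact congrArg Additive.toMul this)
    exact congrArg Additive.ofMul h2
  haveI : Nontrivial (Additive V) := inferInstanceAs (Nontrivial V)
  haveI : Nontrivial (Kb ⊗[ZMod ℓ] Additive V) := by
    apply Module.nontrivial_of_finrank_pos (R := Kb)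
    rw [Module.finrank_baseChange]
    exact Module.finrank_pos
  have key := sum_sigma_ne_zero (K := Kb) (W := Kb ⊗[ZMod ℓ] Additive V) hTK (bc Kb τ₀) (bc Kb σ₀) α
    (by
      intro e t
      have h1 : σ₀ e * τ₀ t * σ₀ e⁻¹ = τ₀ (α e t) := by
        simp only [τ₀, σ₀, MonoidHom.comp_apply]
        rw [← hcomp, map_mul, map_mul, map_inv]
      rw [bc_apply, bc_apply, bc_apply, bc_apply, ← h1, LinearMap.baseChange_mul,
        LinearMap.baseChange_mul])
    (by
      intro s t
      have h1 : τ₀ s * τ₀ t = τ₀ t * τ₀ s := by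
        simp only [τ₀, MonoidHom.comp_apply]
        rw [← map_mul, hcomm, map_mul]
      rw [bc_apply, bc_apply, ← LinearMap.baseChange_mul, h1, LinearMap.baseChange_mul])
    (by
      have : ∑ t, bc Kb τ₀ t = Module.End.baseChangeHom (ZMod ℓ) Kb (Additive V) (∑ t, τ₀ t) := by
        rw [map_sum]
        rfl
      rw [this, hsum0, map_zero])
    (by
      intro e he l hl
      have h1 : Subgroup.closure {x : T | ∃ t, x = α e t * t⁻¹} ≤ l.ker := by
        rw [Subgroup.closure_le]
        rintro x ⟨t, rfl⟩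
        change _ ∈ l.ker
        rw [MonoidHom.mem_ker, map_mul, map_inv, mul_inv_eq_one]
        have h2 := congrArg (fun f : T →* Kbˣ => f (α e t)) hl
        simp only [chAct_apply] at h2
        rw [MulAut.inv_apply_self] at h2
        exact h2.symm
      rw [hfree e he, top_le_iff, MonoidHom.ker_eq_top_iff] at h1
      exact h1)
  by_contra hcon
  push Not at hcon
  apply key
  have h3 : ∑ e, σ₀ e = 0 := by
    apply LinearMap.ext
    intro m
    rw [LinearMap.zero_apply, LinearMap.sum_apply]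
    simp only [hσ₀]
    rw [← ofMul_prod, hcon m.toMul]
    rfl
  have : ∑ e, bc Kb σ₀ e = Module.End.baseChangeHom (ZMod ℓ) Kb (Additive V) (∑ e, σ₀ e) := by
    rw [map_sum]
    rfl
  rw [this, h3, map_zero]

end Cfsg.Agent.Lib.Helper98.FW
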