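import Mathlib
import Cfsg.Agent.Lib.Helper30.Coprime

set_option autoImplicit false
set_option linter.unusedSectionVars false
set_option linter.style.haveILetI false

/-!
# The action on a section `H / N` of an ambient group
-/

namespace Cfsg.Agent.Lib.Helper98.FW

open Subgroup

variable {X : Type*} [Group X] (H N : Subgroup X)

/-- the common normalizer of `H` and `N` -/
def Dn : Subgroup X := normalizer (H : Set X) ⊓ normalizer (N : Set X)

/-- conjugation on `H` -/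
def cH (d : Dn H N) : MulAut H := H.normalizerMonoidHom ⟨d.1, d.2.1⟩

theorem coe_cH (d : Dn H N) (h : H) : ((cH H N d h : H) : X) = d * h * (d : X)⁻¹ := rfl

theorem cH_mul (a b : Dn H N) : cH H N (a * b) = cH H N a * cH H N b := by
  ext h
  rw [MulAut.mul_apply, coe_cH, coe_cH, coe_cH]
  simp only [Subgroup.coe_mul, mul_inv_rev]
  group

theorem map_cH (d : Dn H N) :
    (N.subgroupOf H).map ((cH H N d : H ≃* H) : H →* H) = N.subgroupOf H := by
  ext x
  rw [Subgroup.mem_map]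
  constructor
  · rintro ⟨y, hy, rfl⟩
    rw [mem_subgroupOf] at hy ⊢
    change ((cH H N d y : H) : X) ∈ N
    rw [coe_cH]
    exact (mem_normalizer_iff.1 d.2.2 _).1 hy
  · intro hx
    rw [mem_subgroupOf] at hx
    refine ⟨(cH H N d)⁻¹ x, ?_, ?_⟩
    · rw [mem_subgroupOf]
      have h1 : ((cH H N d ((cH H N d)⁻¹ x) : H) : X) = x := by rw [MulAut.apply_inv_self]
      rw [coe_cH] at h1
      rw [mem_normalizer_iff.1 d.2.2, h1]
      exact hx
    · exact MulAut.apply_inv_self _ _ _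

variable [hn : (N.subgroupOf H).Normal]

/-- the action of the common normalizer on `H / N` -/
def act : Dn H N →* MulAut (H ⧸ N.subgroupOf H) :=
  MonoidHom.mk' (fun d => QuotientGroup.congr _ _ (cH H N d) (map_cH H N d)) (by
    intro a b
    ext x
    induction x using QuotientGroup.induction_on with
    | H h =>
      rw [MulAut.mul_apply, QuotientGroup.congr_mk, QuotientGroup.congr_mk, QuotientGroup.congr_mk, cH_mul,
        MulAut.mul_apply])

theorem act_mk (d : Dn H N) (h : H) :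
    act H N d (h : H ⧸ N.subgroupOf H) = ((cH H N d h : H) : H ⧸ N.subgroupOf H) := rfl

theorem mk_eq_one_iff (h : H) : (h : H ⧸ N.subgroupOf H) = 1 ↔ (h : X) ∈ N := by
  rw [QuotientGroup.eq_one_iff, mem_subgroupOf]

theorem act_mk_eq_iff (d : Dn H N) (h : H) :
    act H N d (h : H ⧸ N.subgroupOf H) = h ↔ (h : X)⁻¹ * d * h * (d : X)⁻¹ ∈ N := by
  rw [act_mk, eq_comm, QuotientGroup.eq, mem_subgroupOf]
  simp only [Subgroup.coe_mul, Subgroup.coe_inv, coe_cH]
  rw [← mul_assoc, ← mul_assoc]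

theorem card_quot_mul [Finite X] (hNH : N ≤ H) :
    Nat.card (H ⧸ N.subgroupOf H) * Nat.card N = Nat.card H := by
  rw [Subgroup.card_eq_card_quotient_mul_card_subgroup (N.subgroupOf H),
    Nat.card_congr (subgroupOfEquivOfLe hNH).toEquiv]

/-- the preimage in `X` of a subgroup of the section -/
def pre (S : Subgroup (H ⧸ N.subgroupOf H)) : Subgroup X :=
  (S.comap (QuotientGroup.mk' (N.subgroupOf H))).map H.subtype

theorem mem_pre (S : Subgroup (H ⧸ N.subgroupOf H)) (x : X) :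
    x ∈ pre H N S ↔ ∃ hx : x ∈ H, ((⟨x, hx⟩ : H) : H ⧸ N.subgroupOf H) ∈ S := by
  unfold pre
  rw [Subgroup.mem_map]
  constructor
  · rintro ⟨y, hy, rfl⟩
    exact ⟨y.2, hy⟩
  · rintro ⟨hx, h⟩
    exact ⟨⟨x, hx⟩, h, rfl⟩

theorem pre_le (S : Subgroup (H ⧸ N.subgroupOf H)) : pre H N S ≤ H := by
  intro x hx
  exact ((mem_pre H N S x).1 hx).1

theorem le_pre (hNH : N ≤ H) (S : Subgroup (H ⧸ N.subgroupOf H)) : N ≤ pre H N S := by
  intro x hx
  rw [mem_pre]
  refine ⟨hNH hx, ?_⟩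
  rw [(mk_eq_one_iff H N ⟨x, hNH hx⟩).2 hx]
  exact S.one_mem

theorem le_normalizer_of_conj_mem {B M : Subgroup X} (h : ∀ b ∈ B, ∀ x ∈ M, b * x * b⁻¹ ∈ M) :
    B ≤ normalizer (M : Set X) := by
  intro b hb
  rw [mem_normalizer_iff]
  intro x
  refine ⟨h b hb x, fun hx => ?_⟩
  have := h b⁻¹ (B.inv_mem hb) _ hx
  simpa [mul_assoc] using this

theorem le_normalizer_pre {B : Subgroup X} (hBD : B ≤ Dn H N) (S : Subgroup (H ⧸ N.subgroupOf H))
    (hS : ∀ (b : X) (hb : b ∈ B), ∀ v ∈ S, act H N ⟨b, hBD hb⟩ v ∈ S) :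
    B ≤ normalizer (pre H N S : Set X) := by
  apply le_normalizer_of_conj_mem
  intro b hb x hx
  rw [mem_pre] at hx ⊢
  obtain ⟨hxH, hxS⟩ := hx
  have h1 := hS b hb _ hxS
  rw [act_mk] at h1
  exact ⟨(cH H N ⟨b, hBD hb⟩ ⟨x, hxH⟩).2, h1⟩

theorem pre_eq_left_iff (hNH : N ≤ H) (S : Subgroup (H ⧸ N.subgroupOf H)) (h : pre H N S = N) : S = ⊥ := by
  rw [eq_bot_iff]
  intro v hv
  induction v using QuotientGroup.induction_on with
  | H x =>
    rw [Subgroup.mem_bot, mk_eq_one_iff, ← h, mem_pre]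
    exact ⟨x.2, hv⟩

theorem pre_eq_right_iff (S : Subgroup (H ⧸ N.subgroupOf H)) (h : pre H N S = H) : S = ⊤ := by
  rw [eq_top_iff]
  intro v _
  induction v using QuotientGroup.induction_on with
  | H x =>
    have h1 : (x : X) ∈ pre H N S := by rw [h]; exact x.2
    rw [mem_pre] at h1
    exact h1.2

/-- fixed points in the section are covered by fixed points -/
theorem card_fix_mul [Finite X] (hNH : N ≤ H) {B : Subgroup X} (hBD : B ≤ Dn H N)
    (hcop : (Nat.card B).Coprime (Nat.card H)) (hsolv : Group.IsSolvable B ∨ Group.IsSolvable H) :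
    Nat.card {v : H ⧸ N.subgroupOf H // ∀ (b : X) (hb : b ∈ B), act H N ⟨b, hBD hb⟩ v = v}
      * Nat.card ↥(N ⊓ centralizer (B : Set X)) = Nat.card ↥(H ⊓ centralizer (B : Set X)) := by
  let ψ : ↥(H ⊓ centralizer (B : Set X)) →* H ⧸ N.subgroupOf H :=
    (QuotientGroup.mk' (N.subgroupOf H)).comp (Subgroup.inclusion inf_le_left)
  have hψ : ∀ c : ↥(H ⊓ centralizer (B : Set X)), ψ c = ((⟨c.1, c.2.1⟩ : H) : H ⧸ N.subgroupOf H) :=
    fun _ => rfl
  have hrange : ∀ v : H ⧸ N.subgroupOf H,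
      v ∈ ψ.range ↔ ∀ (b : X) (hb : b ∈ B), act H N ⟨b, hBD hb⟩ v = v := by
    intro v
    constructor
    · rintro ⟨c, rfl⟩ b hb
      rw [hψ, act_mk_eq_iff]
      have h1 : b * c.1 = c.1 * b := (mem_centralizer_iff.1 c.2.2 b hb)
      have h2 : (c.1 : X)⁻¹ * b * c.1 * b⁻¹ = 1 := by
        rw [mul_assoc (c.1 : X)⁻¹, h1]; group
      change (c.1 : X)⁻¹ * b * c.1 * b⁻¹ ∈ N
      rw [h2]
      exact N.one_mem
    · intro hv
      induction v using QuotientGroup.induction_on with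
      | H h =>
        obtain ⟨n, hn, hc⟩ := Cfsg.Agent.Lib.Helper30.exists_mem_centralizer_of_coset (A := B) (K := H) (N := N)
          (fun b hb => (hBD hb).1) hcop hsolv hNH (fun b hb => (hBD hb).2) h.2
          (fun a ha => (act_mk_eq_iff H N ⟨a, hBD ha⟩ h).1 (hv a ha))
        refine ⟨⟨(h : X) * n, H.mul_mem h.2 (hNH hn), hc⟩, ?_⟩
        rw [hψ, eq_comm, QuotientGroup.eq, mem_subgroupOf]
        simpa using hn
  have hker : Nat.card ψ.ker = Nat.card ↥(N ⊓ centralizer (B : Set X)) := by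
    refine Nat.card_congr ⟨fun c => ⟨c.1.1, ?_, c.1.2.2⟩, fun c => ⟨⟨c.1, hNH c.2.1, c.2.2⟩, ?_⟩,
      fun c => rfl, fun c => rfl⟩
    · have := c.2
      rw [MonoidHom.mem_ker, hψ, mk_eq_one_iff] at this
      exact this
    · rw [MonoidHom.mem_ker, hψ, mk_eq_one_iff]
      exact c.2.1
  have hr : Nat.card {v : H ⧸ N.subgroupOf H // ∀ (b : X) (hb : b ∈ B), act H N ⟨b, hBD hb⟩ v = v}
      = Nat.card ψ.range :=
    Nat.card_congr ⟨fun v => ⟨v.1, (hrange v.1).2 v.2⟩, fun v => ⟨v.1, (hrange v.1).1 v.2⟩,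
      fun v => rfl, fun v => rfl⟩
  rw [hr, ← hker, ← Subgroup.index_ker, mul_comm]
  exact Subgroup.card_mul_index ψ.ker

end Cfsg.Agent.Lib.Helper98.FW
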