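import Mathlib
import Cfsg.Agent.Lib.Helper98.FW.AbsIrr
import Cfsg.Agent.Lib.Helper98.FW.Section

set_option autoImplicit false
set_option linter.unusedSectionVars false
set_option linter.style.haveILetI false

/-!
# The fixed point formula for a Frobenius-like group `U E` acting coprimely on a solvable group
-/

namespace Cfsg.Agent.Lib.Helper98.FW

open Subgroup
open scoped commutatorElement

/-- `abs_formula` for a group which happens to be commutative -/
theorem abs_formula' {Γ : Type*} [Group Γ] [Finite Γ] {Q : Type*} [Group Q] [Finite Q]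
    (hc : ∀ a b : Q, a * b = b * a)
    (U E : Subgroup Γ) [hUn : U.Normal] (hnil : Group.IsNilpotent U)
    (hfpf : ∀ e ∈ E, e ≠ 1 → ∀ u ∈ U, e * u = u * e → u = 1) (hUE : U ⊔ E = ⊤)
    (φ : Γ →* MulAut Q) (hcop : (Nat.card Q).Coprime (Nat.card Γ))
    (hirr : ∀ S : Subgroup Q, (∀ g : Γ, ∀ v ∈ S, φ g v ∈ S) → S = ⊥ ∨ S = ⊤) :
    Nat.card {v : Q // ∀ g : Γ, φ g v = v} ^ Nat.card E * Nat.card Q
      = Nat.card {v : Q // ∀ e ∈ E, φ e v = v} ^ Nat.card E
        * Nat.card {v : Q // ∀ u ∈ U, φ u v = v} := by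
  letI : CommGroup Q := { ‹Group Q› with mul_comm := hc }
  exact abs_formula U E hnil hfpf hUE φ hcop hirr

variable {X : Type*} [Group X] [Finite X]

theorem fw_step (U E H N : Subgroup X)
    (hEU : E ≤ normalizer (U : Set X)) (hnil : Group.IsNilpotent U)
    (hfpf : ∀ e ∈ E, e ≠ 1 → ∀ u ∈ U, e * u = u * e → u = 1)
    (hNH : N ≤ H) (hcomm : ⁅H, H⁆ ≤ N)
    (hAH : U ⊔ E ≤ normalizer (H : Set X)) (hAN : U ⊔ E ≤ normalizer (N : Set X))
    (hcop : (Nat.card H).Coprime (Nat.card ↥(U ⊔ E)))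
    (hsolv : Group.IsSolvable H)
    (hmax : ∀ M : Subgroup X, N ≤ M → M ≤ H → U ⊔ E ≤ normalizer (M : Set X) → M = N ∨ M = H)
    (hIH : Nat.card ↥(N ⊓ centralizer ((U ⊔ E : Subgroup X) : Set X)) ^ Nat.card E * Nat.card N
      = Nat.card ↥(N ⊓ centralizer (E : Set X)) ^ Nat.card E
        * Nat.card ↥(N ⊓ centralizer (U : Set X))) :
    Nat.card ↥(H ⊓ centralizer ((U ⊔ E : Subgroup X) : Set X)) ^ Nat.card E * Nat.card H
      = Nat.card ↥(H ⊓ centralizer (E : Set X)) ^ Nat.card E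
        * Nat.card ↥(H ⊓ centralizer (U : Set X)) := by
  have hHN : H ≤ normalizer (N : Set X) := by
    apply le_normalizer_of_conj_mem
    intro h hh n hn
    have h1 : ⁅h, n⁆ ∈ N := hcomm (commutator_mem_commutator hh (hNH hn))
    have h2 : h * n * h⁻¹ = ⁅h, n⁆ * n := by
      rw [commutatorElement_def]; group
    rw [h2]
    exact N.mul_mem h1 hn
  haveI hn : (N.subgroupOf H).Normal := (normal_subgroupOf_iff_le_normalizer hNH).2 hHN
  have hAD : U ⊔ E ≤ Dn H N := le_inf hAH hAN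
  have hUD : U ≤ Dn H N := le_sup_left.trans hAD
  have hED : E ≤ Dn H N := le_sup_right.trans hAD
  have hUA : U ≤ U ⊔ E := le_sup_left
  have hEA : E ≤ U ⊔ E := le_sup_right
  haveI hUn : (U.subgroupOf (U ⊔ E)).Normal :=
    (normal_subgroupOf_iff_le_normalizer hUA).2 (sup_le le_normalizer hEU)
  have hnil' : Group.IsNilpotent ↥(U.subgroupOf (U ⊔ E)) :=
    Group.nilpotent_of_mulEquiv (subgroupOfEquivOfLe hUA).symm
  have hc : ∀ a b : H ⧸ N.subgroupOf H, a * b = b * a := by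
    intro a b
    induction a using QuotientGroup.induction_on with
    | H a =>
      induction b using QuotientGroup.induction_on with
      | H b =>
        rw [← QuotientGroup.mk_mul, ← QuotientGroup.mk_mul, QuotientGroup.eq, mem_subgroupOf]
        have h1 : ⁅(b : X)⁻¹, (a : X)⁻¹⁆ ∈ N :=
          hcomm (commutator_mem_commutator (H.inv_mem b.2) (H.inv_mem a.2))
        have h2 : (((a * b)⁻¹ * (b * a) : H) : X) = ⁅(b : X)⁻¹, (a : X)⁻¹⁆ := by
          rw [commutatorElement_def]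
          simp only [Subgroup.coe_mul, Subgroup.coe_inv, mul_inv_rev, inv_inv]
          group
        rw [h2]
        exact h1
  let φ : ↥(U ⊔ E) →* MulAut (H ⧸ N.subgroupOf H) := (act H N).comp (inclusion hAD)
  have hφ : ∀ (g : X) (hg : g ∈ U ⊔ E), φ ⟨g, hg⟩ = act H N ⟨g, hAD hg⟩ := fun _ _ => rfl
  have hq := card_quot_mul H N hNH
  have hcopQ : (Nat.card (H ⧸ N.subgroupOf H)).Coprime (Nat.card ↥(U ⊔ E)) :=
    Nat.Coprime.coprime_dvd_left (Dvd.intro _ hq) hcop
  have key := abs_formula' hc (U.subgroupOf (U ⊔ E)) (E.subgroupOf (U ⊔ E)) hnil'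
    (by
      intro e he he1 u hu heu
      have := hfpf e.1 (mem_subgroupOf.1 he) (fun h => he1 (Subtype.ext h)) u.1
        (mem_subgroupOf.1 hu) (congrArg Subtype.val heu)
      exact Subtype.ext this)
    (by rw [← subgroupOf_sup hUA hEA, subgroupOf_self])
    φ hcopQ
    (by
      intro S hS
      have h1 : U ⊔ E ≤ normalizer (pre H N S : Set X) :=
        le_normalizer_pre H N hAD S (fun b hb v hv => hS ⟨b, hb⟩ v hv)
      rcases hmax (pre H N S) (le_pre H N hNH S) (pre_le H N S) h1 with h2 | h2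
      · exact Or.inl (pre_eq_left_iff H N hNH S h2)
      · exact Or.inr (pre_eq_right_iff H N S h2))
  have cE : Nat.card ↥(E.subgroupOf (U ⊔ E)) = Nat.card E :=
    Nat.card_congr (subgroupOfEquivOfLe hEA).toEquiv
  have c1 : Nat.card {v : H ⧸ N.subgroupOf H // ∀ g : ↥(U ⊔ E), φ g v = v}
      = Nat.card {v : H ⧸ N.subgroupOf H // ∀ (b : X) (hb : b ∈ U ⊔ E), act H N ⟨b, hAD hb⟩ v = v} :=
    Nat.card_congr ⟨fun v => ⟨v.1, fun b hb => v.2 ⟨b, hb⟩⟩, fun v => ⟨v.1, fun g => v.2 g.1 g.2⟩,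
      fun _ => rfl, fun _ => rfl⟩
  have c2 : Nat.card {v : H ⧸ N.subgroupOf H // ∀ e ∈ E.subgroupOf (U ⊔ E), φ e v = v}
      = Nat.card {v : H ⧸ N.subgroupOf H // ∀ (b : X) (hb : b ∈ E), act H N ⟨b, hED hb⟩ v = v} :=
    Nat.card_congr ⟨fun v => ⟨v.1, fun b hb => v.2 ⟨b, hEA hb⟩ (mem_subgroupOf.2 hb)⟩,
      fun v => ⟨v.1, fun g hg => v.2 g.1 (mem_subgroupOf.1 hg)⟩, fun _ => rfl, fun _ => rfl⟩
  have c3 : Nat.card {v : H ⧸ N.subgroupOf H // ∀ e ∈ U.subgroupOf (U ⊔ E), φ e v = v}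
      = Nat.card {v : H ⧸ N.subgroupOf H // ∀ (b : X) (hb : b ∈ U), act H N ⟨b, hUD hb⟩ v = v} :=
    Nat.card_congr ⟨fun v => ⟨v.1, fun b hb => v.2 ⟨b, hUA hb⟩ (mem_subgroupOf.2 hb)⟩,
      fun v => ⟨v.1, fun g hg => v.2 g.1 (mem_subgroupOf.1 hg)⟩, fun _ => rfl, fun _ => rfl⟩
  rw [cE, c1, c2, c3] at key
  have hcopA : (Nat.card ↥(U ⊔ E)).Coprime (Nat.card H) := hcop.symm
  have hcopU : (Nat.card U).Coprime (Nat.card H) :=
    Nat.Coprime.coprime_dvd_left (card_dvd_of_le hUA) hcopA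
  have hcopE : (Nat.card E).Coprime (Nat.card H) :=
    Nat.Coprime.coprime_dvd_left (card_dvd_of_le hEA) hcopA
  have fA := card_fix_mul H N hNH hAD hcopA (Or.inr hsolv)
  have fE := card_fix_mul H N hNH hED hcopE (Or.inr hsolv)
  have fU := card_fix_mul H N hNH hUD hcopU (Or.inr hsolv)
  rw [← fA, ← fE, ← fU, ← hq, mul_pow, mul_pow]
  calc _ = (Nat.card {v : H ⧸ N.subgroupOf H // ∀ (b : X) (hb : b ∈ U ⊔ E), act H N ⟨b, hAD hb⟩ v = v}
          ^ Nat.card E * Nat.card (H ⧸ N.subgroupOf H))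
        * (Nat.card ↥(N ⊓ centralizer ((U ⊔ E : Subgroup X) : Set X)) ^ Nat.card E * Nat.card N) := by
        ring
    _ = _ := by
        rw [key, hIH]; ring

theorem fw_formula (U E : Subgroup X)
    (hEU : E ≤ normalizer (U : Set X)) (hnil : Group.IsNilpotent U)
    (hfpf : ∀ e ∈ E, e ≠ 1 → ∀ u ∈ U, e * u = u * e → u = 1) (H : Subgroup X)
    (hAH : U ⊔ E ≤ normalizer (H : Set X)) (hsolv : Group.IsSolvable H)
    (hcop : (Nat.card H).Coprime (Nat.card ↥(U ⊔ E))) :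
    Nat.card ↥(H ⊓ centralizer ((U ⊔ E : Subgroup X) : Set X)) ^ Nat.card E * Nat.card H
      = Nat.card ↥(H ⊓ centralizer (E : Set X)) ^ Nat.card E
        * Nat.card ↥(H ⊓ centralizer (U : Set X)) := by
  obtain ⟨k, hk⟩ : ∃ k, Nat.card H = k := ⟨_, rfl⟩
  induction k using Nat.strong_induction_on generalizing H with
  | _ k ih =>
    by_cases hH : H = ⊥
    · subst hH
      simp
    have hnt : Nontrivial H := (nontrivial_iff_ne_bot H).2 hH
    have hder : ⁅H, H⁆ ≠ H := by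
      intro h
      have h1 := Group.IsSolvable.commutator_lt_top_of_nontrivial H
      have h2 : (commutator H).map H.subtype = ⁅H, H⁆ := by
        rw [_root_.commutator_def, map_commutator, ← MonoidHom.range_eq_map, H.range_subtype]
      apply h1.ne
      apply Subgroup.map_injective H.subtype_injective
      rw [h2, h, ← MonoidHom.range_eq_map, H.range_subtype]
    have hderle : ⁅H, H⁆ ≤ H := commutator_le.2 (fun a ha b hb =>
      H.mul_mem (H.mul_mem (H.mul_mem ha hb) (H.inv_mem ha)) (H.inv_mem hb))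
    obtain ⟨N, hN, hNmax⟩ := (Set.toFinite {M : Subgroup X | ⁅H, H⁆ ≤ M ∧ M ≤ H ∧ M ≠ H ∧
      U ⊔ E ≤ normalizer (M : Set X)}).exists_maximal
        ⟨⁅H, H⁆, le_rfl, hderle, hder, Cfsg.Agent.Lib.Helper30.le_normalizer_commutator hAH hAH⟩
    obtain ⟨hN1, hN2, hN3, hN4⟩ := hN
    have hlt : Nat.card N < Nat.card H := by
      apply lt_of_le_of_ne (card_le_of_le hN2)
      intro h
      exact hN3 (eq_of_le_of_card_ge hN2 h.ge)
    have hsolvN : Group.IsSolvable N :=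
      Group.isSolvable_of_isSolvable_injective (inclusion_injective hN2)
    have hcopN : (Nat.card N).Coprime (Nat.card ↥(U ⊔ E)) :=
      Nat.Coprime.coprime_dvd_left (card_dvd_of_le hN2) hcop
    refine fw_step U E H N hEU hnil hfpf hN2 hN1 hAH hN4 hcop hsolv ?_
      (ih (Nat.card N) (hk ▸ hlt) N hN4 hsolvN hcopN rfl)
    intro M hNM hMH hAM
    by_cases hM : M = H
    · exact Or.inr hM
    · left
      exact le_antisymm (hNmax ⟨hN1.trans hNM, hMH, hM, hAM⟩ hNM) hNM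

end Cfsg.Agent.Lib.Helper98.FW
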